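import Cfsg.Agent.FrobOrder.Basic
import Cfsg.Agent.Signalizer.Functor

/-!
A solvable subgroup central in every solvable subgroup containing it is central: in a minimal counterexample
its centraliser is a Frobenius complement modulo the centre, and the kernel is nilpotent.
-/

set_option autoImplicit false

namespace CfsgLib.CentralOvergroup

open Pointwise

universe u

theorem main : ∀ (n : ℕ) (G : Type u) [Group G] [Finite G], Nat.card G = n → ∀ A : Subgroup G,
    Group.IsSolvable A → (∀ S : Subgroup G, A ≤ S → Group.IsSolvable S → ∀ a ∈ A, ∀ s ∈ S, a * s = s * a) →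
    A ≤ Subgroup.center G := by
  intro n
  induction n using Nat.strong_induction_on with
  | _ n ih =>
  intro G _ _ hn A hA hc
  classical
  by_contra hne
  set C := Subgroup.centralizer (A : Set G) with hC
  have hAC : A ≤ C := fun a ha => Subgroup.mem_centralizer_iff.mpr fun b hb => hc A le_rfl hA b hb a ha
  -- every proper overgroup centralises `A`
  have hover : ∀ M : Subgroup G, A ≤ M → M ≠ ⊤ → M ≤ C := by
    intro M hAM hM
    have hlt : Nat.card M < n := by
      rw [← hn]
      exact lt_of_le_of_ne (Subgroup.card_le_card_group M) fun h => hM (Subgroup.eq_top_of_card_eq M h)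
    haveI := hA
    have h := ih _ hlt M rfl (A.subgroupOf M)
      ((Subgroup.subgroupOfEquivOfLe hAM).symm.surjective |> Group.isSolvable_of_surjective
        (f := (Subgroup.subgroupOfEquivOfLe hAM).symm.toMonoidHom))
      (fun S hS hSs a ha s hs => by
        haveI := hSs
        exact Subtype.ext (hc (S.map M.subtype)
          (fun x hx => ⟨⟨x, hAM hx⟩, hS hx, rfl⟩)
          (Group.isSolvable_of_surjective (M.subtype.subgroupMap_surjective S))
          _ ha _ ⟨s, hs, rfl⟩))
    intro m hm
    rw [hC, Subgroup.mem_centralizer_iff]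
    intro a ha
    exact congrArg Subtype.val (Subgroup.mem_center_iff.mp (h (show (⟨a, hAM ha⟩ : M) ∈ A.subgroupOf M from ha)) ⟨m, hm⟩).symm
  have hCtop : C ≠ ⊤ := fun h => hne fun a ha => Subgroup.mem_center_iff.mpr fun g =>
    (Subgroup.mem_centralizer_iff.mp (h ▸ Subgroup.mem_top g : g ∈ C) a ha).symm
  have hnsol : ¬ Group.IsSolvable G := fun hs => hne fun a ha => Subgroup.mem_center_iff.mpr fun g => by
    haveI := hs
    exact (hc ⊤ le_top inferInstance a ha g (Subgroup.mem_top g)).symm
  -- the centraliser is self-normalising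
  have hNC : Subgroup.normalizer (C : Set G) = C := by
    refine le_antisymm (hover _ (hAC.trans Subgroup.le_normalizer) fun htop => ?_) Subgroup.le_normalizer
    haveI : C.Normal := Subgroup.normalizer_eq_top_iff.mp htop
    haveI : (Subgroup.centralizer (C : Set G)).Normal := Subgroup.normal_centralizer
    set N := C ⊓ Subgroup.centralizer (C : Set G) with hN
    have hAN : A ≤ N := le_inf hAC (Subgroup.le_centralizer_iff.mp le_rfl)
    obtain ⟨g, hg⟩ : ∃ g, g ∉ C := by
      by_contra hall
      push Not at hall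
      exact hCtop (eq_top_iff.mpr fun x _ => hall x)
    have hgen : N ⊔ Subgroup.zpowers g = ⊤ := by
      by_contra hp
      exact hg (hover _ (hAN.trans le_sup_left) hp (Subgroup.mem_sup_right (Subgroup.mem_zpowers g)))
    refine hnsol (CfsgLib.Hall.isSolvable_of_normal N (Group.isSolvable_of_comm fun a b =>
      Subtype.ext ((Subgroup.mem_centralizer_iff.mp b.2.2) a a.2.1)) ?_)
    refine Group.isSolvable_of_comm fun a b => ?_
    have hz : ∀ c : G ⧸ N, c ∈ Subgroup.zpowers (QuotientGroup.mk' N g) := by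
      intro c
      obtain ⟨x, rfl⟩ := QuotientGroup.mk'_surjective N c
      have hx : QuotientGroup.mk' N x ∈ (⊤ : Subgroup G).map (QuotientGroup.mk' N) := ⟨x, Subgroup.mem_top _, rfl⟩
      rwa [← hgen, Subgroup.map_sup, QuotientGroup.map_mk'_self, bot_sup_eq, MonoidHom.map_zpowers] at hx
    obtain ⟨i, rfl⟩ := Subgroup.mem_zpowers_iff.mp (hz a)
    obtain ⟨j, rfl⟩ := Subgroup.mem_zpowers_iff.mp (hz b)
    rw [← zpow_add, ← zpow_add, add_comm]
  have hconj : ∀ g, g ∉ C → ¬ A.map (MulAut.conj g).toMonoidHom ≤ C := by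
    intro g hg hle
    apply hg
    have hA' : A ≤ C.map (MulAut.conj g).toMonoidHom := by
      intro a ha
      refine ⟨g⁻¹ * a * g, Subgroup.mem_centralizer_iff.mpr fun b hb => ?_, by simp [mul_assoc]⟩
      have h1 := Subgroup.mem_centralizer_iff.mp (hle ⟨b, hb, rfl⟩) a ha
      change a * (g * b * g⁻¹) = g * b * g⁻¹ * a at h1
      calc b * (g⁻¹ * a * g) = g⁻¹ * (g * b * g⁻¹ * a) * g := by group
        _ = g⁻¹ * (a * (g * b * g⁻¹)) * g := by rw [h1]
        _ = g⁻¹ * a * g * b := by group
    have hne' : C.map (MulAut.conj g).toMonoidHom ≠ ⊤ := fun h => hCtop (Subgroup.map_injective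
      (f := (MulAut.conj g).toMonoidHom) (MulAut.conj g).injective
      (h.trans (Subgroup.map_top_of_surjective _ (MulAut.conj g).surjective).symm))
    rw [← hNC]
    exact Subgroup.mem_normalizer_iff_map_conj_eq.mpr (Subgroup.eq_of_le_of_card_ge (hover _ hA' hne')
      (le_of_eq (Subgroup.card_map_of_injective (f := (MulAut.conj g).toMonoidHom) (MulAut.conj g).injective).symm))
  -- modulo the centre the centraliser is a Frobenius complement
  set Z := Subgroup.center G with hZ
  set π := QuotientGroup.mk' Z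
  have hZC : Z ≤ C := fun z hz => Subgroup.mem_centralizer_iff.mpr fun a _ => Subgroup.mem_center_iff.mp hz a
  have hcomap : (C.map π).comap π = C := by
    rw [Subgroup.comap_map_eq, QuotientGroup.ker_mk', sup_eq_left.mpr hZC]
  have hfrob : Cfsg.IsFrobeniusComplement (C.map π) := by
    refine ⟨fun h => hne fun a ha => ?_, fun h => hCtop ?_, fun gb hgb => ?_⟩
    · have : π a ∈ C.map π := ⟨a, hAC ha, rfl⟩
      rw [h, Subgroup.mem_bot] at this
      exact (QuotientGroup.eq_one_iff a).mp this
    · rw [← hcomap, h, Subgroup.comap_top]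
    · obtain ⟨g, rfl⟩ := QuotientGroup.mk'_surjective Z gb
      have hg : g ∉ C := fun h => hgb ⟨g, h, rfl⟩
      rw [eq_bot_iff]
      rintro _ ⟨⟨x, hx, rfl⟩, hx'⟩
      obtain ⟨cb, hcb, heq⟩ := hx'
      obtain ⟨c, hcC, rfl⟩ := hcb
      rw [Subgroup.mem_bot]
      refine (QuotientGroup.eq_one_iff x).mpr ?_
      have hx2 : g⁻¹ * x * g ∈ C := by
        rw [← hcomap, Subgroup.mem_comap]
        refine ⟨c, hcC, ?_⟩
        have heq' : π g * π c * (π g)⁻¹ = π x := heq
        rw [map_mul, map_mul, map_inv, ← heq']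
        group
      have hgen : A ⊔ A.map (MulAut.conj g).toMonoidHom = ⊤ := by
        by_contra hp
        exact hconj g hg (le_sup_right.trans (hover _ le_sup_left hp))
      have hxc : A ⊔ A.map (MulAut.conj g).toMonoidHom ≤ Subgroup.centralizer ({x} : Set G) := by
        refine sup_le (fun a ha => ?_) ?_
        · rw [Subgroup.mem_centralizer_singleton_iff]
          exact Subgroup.mem_centralizer_iff.mp hx a ha
        · rintro _ ⟨a, ha, rfl⟩
          rw [Subgroup.mem_centralizer_singleton_iff]
          show g * a * g⁻¹ * x = x * (g * a * g⁻¹)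
          calc g * a * g⁻¹ * x = g * (a * (g⁻¹ * x * g)) * g⁻¹ := by group
            _ = g * (g⁻¹ * x * g * a) * g⁻¹ := by rw [Subgroup.mem_centralizer_iff.mp hx2 a ha]
            _ = x * (g * a * g⁻¹) := by group
      rw [hgen] at hxc
      exact Subgroup.mem_center_iff.mpr fun y => Subgroup.mem_centralizer_singleton_iff.mp (hxc (Subgroup.mem_top y))
  -- the kernel
  haveI := CfsgLib.Frob.kernel_normal hfrob
  haveI := CfsgLib.FrobOrder.kernel_isNilpotent hfrob
  set K₀ := (CfsgLib.Frob.kernel hfrob).comap π with hK₀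
  haveI : K₀.Normal := Subgroup.Normal.comap inferInstance π
  have hK₀s : Group.IsSolvable K₀ := by
    haveI : Group.IsSolvable (CfsgLib.Frob.kernel hfrob) := inferInstance
    haveI : Group.IsSolvable Z := Group.isSolvable_of_comm fun a b => Subtype.ext (Subgroup.mem_center_iff.mp b.2 a)
    refine Group.isSolvable_of_ker_le_range (Subgroup.inclusion (show Z ≤ K₀ from fun z hz => by
      rw [hK₀, Subgroup.mem_comap, show π z = 1 from (QuotientGroup.eq_one_iff z).mpr hz]; exact one_mem _))
      (π.subgroupComap (CfsgLib.Frob.kernel hfrob)) ?_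
    intro x hx
    rw [MonoidHom.mem_ker] at hx
    exact ⟨⟨x, (QuotientGroup.eq_one_iff _).mp (congrArg Subtype.val hx)⟩, rfl⟩
  have hcomm := hc (K₀ ⊔ A) le_sup_right (CfsgLib.Signalizer.isSolvable_sup hK₀s hA (by
    rw [Subgroup.normalizer_eq_top K₀]; exact le_top))
  apply hne
  intro a ha
  by_contra haZ
  obtain ⟨k, hk, hk1⟩ := (Subgroup.nontrivial_iff_exists_ne_one _).mp
    ((Subgroup.nontrivial_iff_ne_bot _).mpr (CfsgLib.Frob.kernel_ne_bot hfrob))
  obtain ⟨k0, rfl⟩ := QuotientGroup.mk'_surjective Z k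
  have hmem : π k0 ∈ CfsgLib.Frob.kernel hfrob ⊓ Subgroup.centralizer ({π a} : Set (G ⧸ Z)) :=
    ⟨hk, Subgroup.mem_centralizer_singleton_iff.mpr (by
      rw [← map_mul, ← map_mul, (hcomm a ha k0 (Subgroup.mem_sup_left hk))])⟩
  rw [CfsgLib.Frob.kernel_inf_centralizer hfrob ⟨a, hAC ha, rfl⟩
    (fun h => haZ ((QuotientGroup.eq_one_iff a).mp h)), Subgroup.mem_bot] at hmem
  exact hk1 hmem

end CfsgLib.CentralOvergroup
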